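import Cfsg.Agent.H957.LRGAbs
import Cfsg.Agent.Nodes.RGDTwD4
import Cfsg.Agent.Schreier.BNSch
import Cfsg.Agent.S0310

/-!
# S5714 (task X5): the long root groups of `³D₄(q)` (helper513)

The triality-fixed roots of `D₄` form a hexagon: in cyclic order `23, 22, 9, 0, 1, 14`.
-/

set_option autoImplicit false
set_option linter.unusedSectionVars false
set_option Elab.async false

namespace Cfsg.Agent.H513.Rg.TwD4

open Cfsg Cfsg.Lie Cfsg.Agent.ChevalleyStructure Cfsg.Agent.H141.Rg Cfsg.Agent.H957.LRGAbs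
open Cfsg.Agent.ChevalleyStructure.D4Comm
open Cfsg.Agent.ChevalleyStructure.D4U Cfsg.Agent.ChevalleyStructure.D4Twisted
open Cfsg.Agent.ChevalleyStructure.D4Fixed (sig fix exists_frob twisted_le_fix)
open Cfsg.Agent.ChevalleyStructure.D4RGD
open Cfsg.Agent.ChevalleyStructure.D4NConj
open Cfsg.Agent.ChevalleyStructure.D4NCheck
open Cfsg.Agent.ChevalleyStructure.GraphSymm
open Cfsg.Agent.Nodes.RGDTwD4 (hp eps)
open Cfsg.Agent.Nodes.RGDFold (commute_of_nil)

/-- the long roots -/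
def gi : Fin 6 → ℕ := ![23, 22, 9, 0, 1, 14]

/-- the pairing -/
def pr (a b : Fin 6) : ℤ := ![2, 1, -1, -2, -1, 1] (b - a)

theorem gi_lt : ∀ a, gi a < 24 := by decide +kernel

theorem gi_inj : ∀ a b, gi a = gi b → a = b := by decide +kernel

theorem rho_gi : ∀ a, Cfsg.Agent.Nodes.RGDTwD4.rho (gi a) = gi a := by decide +kernel

theorem eps_gi : ∀ a, eps (gi a) = 1 := by decide +kernel

theorem comm0 : ∀ a b, 0 ≤ pr a b → a ≠ b → gi b ≠ gi a ∧ gi b ≠ chevD4.neg (gi a) ∧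
    chevD4.commTerms (gi a) (gi b) = [] := by decide +kernel

/-- the root between two roots -/
def mid (a b : Fin 6) : Fin 6 := if b = a + 2 then a + 1 else a - 1

/-- the structure constants -/
def cst (a b : Fin 6) : ℤ := ((chevD4.commTerms (gi b) (gi a)).map fun c => c.2.1).sum

theorem comm1 : ∀ a b, pr a b = -1 → gi a ≠ gi b ∧ gi a ≠ chevD4.neg (gi b) ∧
    chevD4.commTerms (gi b) (gi a) = [(gi (mid a b), cst a b, 1, 1)] ∧ (cst a b = 1 ∨ cst a b = -1) ∧
    pr a (mid a b) = 1 ∧ pr (mid a b) b = 1 ∧ pr (mid a b) a = 1 := by decide +kernel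

/-- the action of `na` -/
def pA : Fin 6 → Fin 6 := ![1, 0, 5, 4, 3, 2]

/-- the action of `nb` -/
def pB : Fin 6 → Fin 6 := ![0, 5, 4, 3, 2, 1]

theorem rfl_na : ∀ a, rfl' 1 (gi a) = gi (pA a) := by decide +kernel

theorem rfl_nb : ∀ a, rb (gi a) = gi (pB a) := by decide +kernel

theorem neg_gi : ∀ r ∈ List.range 24, 12 ≤ r → r ≠ 23 → r ≠ chevD4.neg 23 ∧ chevD4.commTerms 23 r = [] := by
  decide +kernel

theorem pr_self : ∀ a, pr a a = 2 := by decide +kernel

theorem grp_comm {G : Type*} [Group G] {p q z : G} (h : p * q = q * p * z) (h1 : Commute p z) (h2 : Commute q z) :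
    p * q * p⁻¹ * q⁻¹ = z := by
  have e : p * q = z * (q * p) := by rw [h]; exact ((h2.mul_left h1).eq)
  rw [e]
  group

section Comm

variable {K : Type} [Field K]

theorem comm_eq {a b : Fin 6} (h : pr a b = -1) (s t : K) :
    xG (gi a) s * xG (gi b) t * (xG (gi a) s)⁻¹ * (xG (gi b) t)⁻¹ = xG (gi (mid a b)) (((-cst a b : ℤ) : K) * s * t) := by
  obtain ⟨h1, h2, h3, -, h5, h6, h7⟩ := comm1 a b h
  have e1 := Cfsg.Agent.S1025.result (F := K) chevD4 hp.inList (gi b) (gi a) (gi_lt b) (gi_lt a) h1 h2 t s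
  have e2 : (xG (gi a) s : GL chevD4.Idx K) * xG (gi b) t = xG (gi b) t * xG (gi a) s *
      xG (gi (mid a b)) (((-cst a b : ℤ) : K) * s * t) := by
    apply Units.ext
    rw [Units.val_mul, Units.val_mul, Units.val_mul, coe_xG, coe_xG, coe_xG]
    rw [e1]
    congr 1
    unfold ChevalleyDatum.commWord
    rw [h3]
    simp only [List.map_cons, List.map_nil, pow_one]
    rw [ChevalleyDatum.wordMat]
    simp only [List.map_cons, List.map_nil, List.prod_cons, List.prod_nil, mul_one]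
    congr 1
    push_cast
    ring
  have c1 : Commute (xG (gi a) s : GL chevD4.Idx K) (xG (gi (mid a b)) (((-cst a b : ℤ) : K) * s * t)) := by
    obtain ⟨k1, k2, k3⟩ := comm0 a (mid a b) (by rw [h5]; norm_num) (by intro e; rw [← e, pr_self] at h5; omega)
    have := commute_of_nil hp (gi_lt a) (gi_lt _) k1 k2 k3 s (((-cst a b : ℤ) : K) * s * t)
    rwa [Cfsg.Agent.Nodes.RGDTwD4.xG_eq] at this
  have c2 : Commute (xG (gi b) t : GL chevD4.Idx K) (xG (gi (mid a b)) (((-cst a b : ℤ) : K) * s * t)) := by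
    obtain ⟨k1, k2, k3⟩ := comm0 (mid a b) b (by rw [h6]; norm_num) (by intro e; rw [e, pr_self] at h6; omega)
    have := commute_of_nil hp (gi_lt _) (gi_lt _) k1 k2 k3 (((-cst a b : ℤ) : K) * s * t) t
    rw [Cfsg.Agent.Nodes.RGDTwD4.xG_eq] at this
    exact this.symm
  exact grp_comm e2 c1 c2

theorem comm_ge {a b : Fin 6} (h : 0 ≤ pr a b) (s t : K) : Commute (xG (gi a) s : GL chevD4.Idx K) (xG (gi b) t) := by
  by_cases e : a = b
  · subst e
    show _ * _ = _ * _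
    rw [← xG_add, ← xG_add, add_comm]
  · obtain ⟨k1, k2, k3⟩ := comm0 a b h e
    have := commute_of_nil hp (gi_lt a) (gi_lt _) k1 k2 k3 s t
    rwa [Cfsg.Agent.Nodes.RGDTwD4.xG_eq] at this

end Comm

section Tw

variable {K : Type} [Field K] {q : ℕ} {φ : K →+* K}

theorem fix_of_mem (hle : twistedD4 K q ≤ fix φ) {a : Fin 6} {t : K} (h : xG (gi a) t ∈ twistedD4 K q) : φ t = t := by
  have h1 : sig φ (xG (gi a) t) = xG (gi a) t := hle h
  have e1 := rho_gi a
  have e2 := eps_gi a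
  rw [Cfsg.Agent.Nodes.RGDTwD4.rho, dif_pos (gi_lt a)] at e1
  rw [eps, dif_pos (gi_lt a)] at e2
  rw [sig_xG φ (gi_lt a) e1 e2] at h1
  simp only [Int.cast_one, one_mul] at h1
  have h2 : xG (gi a) (φ t + -t) = (1 : GL chevD4.Idx K) := by
    rw [xG_add, xG_neg, h1, mul_inv_cancel]
  rw [xG_eq_one_iff (gi_lt a)] at h2
  linear_combination h2

/-- conjugation by `na` -/
theorem na_gi (a : Fin 6) : ∃ e : K, (e = 1 ∨ e = -1) ∧
    ∀ t : K, na K * xG (gi a) t * (na K)⁻¹ = xG (gi (pA a)) (e * t) := by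
  have hb := rfl_na a
  refine ⟨(eta 1 (gi a) : K), ?_, fun t => ?_⟩
  · rcases eta_cases (i := 1) (by norm_num) (gi_lt a) with h | h <;> rw [h] <;> simp
  · rw [← hb]
    exact nG_conj (by norm_num) (gi_lt a) t

/-- conjugation by `nb` -/
theorem nb_gi (a : Fin 6) : ∃ e : K, (e = 1 ∨ e = -1) ∧
    ∀ t : K, nb K * xG (gi a) t * (nb K)⁻¹ = xG (gi (pB a)) (e * t) := by
  have hb := rfl_nb a
  have h3 := D4NConj.rfl'_lt (i := 3) (by norm_num) (gi_lt a)
  have h2 := D4NConj.rfl'_lt (i := 2) (by norm_num) h3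
  refine ⟨(eta 0 (rfl' 2 (rfl' 3 (gi a))) : K) * ((eta 2 (rfl' 3 (gi a)) : K) * (eta 3 (gi a) : K)), ?_, fun t => ?_⟩
  · rcases eta_cases (i := 0) (by norm_num) h2 with h | h <;> rcases eta_cases (i := 2) (by norm_num) h3 with h' | h' <;>
      rcases eta_cases (i := 3) (by norm_num) (gi_lt a) with h'' | h'' <;> rw [h, h', h''] <;> simp
  · have e : nb K * xG (gi a) t * (nb K)⁻¹ =
        nG K 0 * (nG K 2 * (nG K 3 * xG (gi a) t * (nG K 3)⁻¹) * (nG K 2)⁻¹) * (nG K 0)⁻¹ := by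
      unfold nb
      group
    rw [e, nG_conj (by norm_num) (gi_lt a), nG_conj (by norm_num) h3, nG_conj (by norm_num) h2, ← hb]
    rw [rb, mul_assoc, mul_assoc]

theorem sq_one {e : K} (h : e = 1 ∨ e = -1) : e * e = 1 := by
  rcases h with rfl | rfl <;> ring

theorem fix_pm {e t : K} (h : e = 1 ∨ e = -1) (ht : φ t = t) : φ (e * t) = e * t := by
  rcases h with rfl | rfl <;> simp [ht]

theorem mem_pA (hφ : ∀ x, φ x = x ^ q) {a : Fin 6} (h : ∀ t : K, φ t = t → xG (gi a) t ∈ twistedD4 K q) (t : K)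
    (ht : φ t = t) : xG (gi (pA a)) t ∈ twistedD4 K q := by
  obtain ⟨e, he, h1⟩ := na_gi (K := K) a
  have h2 := h1 (e * t)
  rw [← mul_assoc, sq_one he, one_mul] at h2
  rw [← h2]
  exact mul_mem (mul_mem (na_mem hφ) (h _ (fix_pm he ht))) (inv_mem (na_mem hφ))

theorem mem_pB (hφ : ∀ x, φ x = x ^ q) {a : Fin 6} (h : ∀ t : K, φ t = t → xG (gi a) t ∈ twistedD4 K q) (t : K)
    (ht : φ t = t) : xG (gi (pB a)) t ∈ twistedD4 K q := by
  obtain ⟨e, he, h1⟩ := nb_gi (K := K) a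
  have h2 := h1 (e * t)
  rw [← mul_assoc, sq_one he, one_mul] at h2
  rw [← h2]
  exact mul_mem (mul_mem (nb_mem hφ) (h _ (fix_pm he ht))) (inv_mem (nb_mem hφ))

theorem mem_tw (hφ : ∀ x, φ x = x ^ q) (a : Fin 6) (t : K) (ht : φ t = t) : xG (gi a) t ∈ twistedD4 K q := by
  have h5 : ∀ t : K, φ t = t → xG (gi 5) t ∈ twistedD4 K q := fun t ht => xG14_mem hφ ht
  have h2 := mem_pA hφ h5
  have h1 := mem_pB hφ h5
  have h0 := mem_pA hφ h1
  have h4 := mem_pB hφ h2
  have h3 := mem_pA hφ h4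
  fin_cases a
  · exact h0 t ht
  · exact h1 t ht
  · exact h2 t ht
  · exact h3 t ht
  · exact h4 t ht
  · exact h5 t ht

/-- the fixed field -/
abbrev K' (φ : K →+* K) : Subfield K := RingHom.eqLocusField φ (RingHom.id K)

/-- the long root elements -/
def X (hφ : ∀ x, φ x = x ^ q) (a : Fin 6) (t : K' φ) : ↥(twistedD4 K q) := ⟨xG (gi a) (t : K), mem_tw hφ a t t.2⟩

theorem coe_X (hφ : ∀ x, φ x = x ^ q) (a : Fin 6) (t : K' φ) : (X hφ a t : GL chevD4.Idx K) = xG (gi a) (t : K) := rfl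

/-- `g` conjugates the root group `a` to the root group `b` -/
def Sc (hφ : ∀ x, φ x = x ^ q) (g : ↥(twistedD4 K q)) (a b : Fin 6) : Prop :=
  ∃ e : K' φ, e ≠ 0 ∧ ∀ t, g * X hφ a t * g⁻¹ = X hφ b (e * t)

theorem Sc.one (hφ : ∀ x, φ x = x ^ q) (a : Fin 6) : Sc hφ 1 a a := ⟨1, one_ne_zero, fun t => by simp⟩

theorem Sc.mul {hφ : ∀ x, φ x = x ^ q} {g h : ↥(twistedD4 K q)} {a b c : Fin 6} (h1 : Sc hφ g b c) (h2 : Sc hφ h a b) :
    Sc hφ (g * h) a c := by
  obtain ⟨e, he, h1⟩ := h1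
  obtain ⟨f, hf, h2⟩ := h2
  refine ⟨e * f, mul_ne_zero he hf, fun t => ?_⟩
  rw [mul_assoc e, ← h1, ← h2]
  group

theorem Sc.inv {hφ : ∀ x, φ x = x ^ q} {g : ↥(twistedD4 K q)} {a b : Fin 6} (h : Sc hφ g a b) : Sc hφ g⁻¹ b a := by
  obtain ⟨e, he, h⟩ := h
  refine ⟨e⁻¹, inv_ne_zero he, fun t => ?_⟩
  have := h (e⁻¹ * t)
  rw [mul_inv_cancel_left₀ he] at this
  rw [← this]
  group

theorem sc_of {hφ : ∀ x, φ x = x ^ q} {g : ↥(twistedD4 K q)} {a b : Fin 6} (h : ∃ e : K, (e = 1 ∨ e = -1) ∧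
    ∀ t : K, (g : GL chevD4.Idx K) * xG (gi a) t * (g : GL chevD4.Idx K)⁻¹ = xG (gi b) (e * t)) : Sc hφ g a b := by
  obtain ⟨e, he, h⟩ := h
  rcases he with rfl | rfl
  · refine ⟨1, one_ne_zero, fun t => Subtype.ext ?_⟩
    rw [coe_X, Subgroup.coe_mul, Subgroup.coe_mul, Subgroup.coe_inv, coe_X, h]
    simp
  · refine ⟨-1, neg_ne_zero.2 one_ne_zero, fun t => Subtype.ext ?_⟩
    rw [coe_X, Subgroup.coe_mul, Subgroup.coe_mul, Subgroup.coe_inv, coe_X, h]
    simp

theorem sc_A (hφ : ∀ x, φ x = x ^ q) (a : Fin 6) : Sc hφ (nA hφ) a (pA a) := sc_of (na_gi a)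

theorem sc_B (hφ : ∀ x, φ x = x ^ q) (a : Fin 6) : Sc hφ (nB hφ) a (pB a) := sc_of (nb_gi a)

theorem sc_closure (hφ : ∀ x, φ x = x ^ q) {g : ↥(twistedD4 K q)} (hg : g ∈ Subgroup.closure {nA hφ, nB hφ}) :
    ∀ a, ∃ b, Sc hφ g a b := by
  induction hg using Subgroup.closure_induction_left with
  | one => exact fun a => ⟨a, Sc.one hφ a⟩
  | mul_left x hx y _ ih =>
    intro a
    obtain ⟨b, hb⟩ := ih a
    rcases hx with rfl | hx
    · exact ⟨_, (sc_A hφ b).mul hb⟩
    · rw [Set.mem_singleton_iff] at hx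
      subst hx
      exact ⟨_, (sc_B hφ b).mul hb⟩
  | inv_mul_cancel x hx y _ ih =>
    intro a
    obtain ⟨b, hb⟩ := ih a
    have pAA : ∀ b, pA (pA b) = b := by decide +kernel
    have pBB : ∀ b, pB (pB b) = b := by decide +kernel
    rcases hx with rfl | hx
    · have := (sc_A hφ (pA b)).inv
      rw [pAA] at this
      exact ⟨_, this.mul hb⟩
    · rw [Set.mem_singleton_iff] at hx
      subst hx
      have := (sc_B hφ (pB b)).inv
      rw [pBB] at this
      exact ⟨_, this.mul hb⟩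

theorem sc_top (hφ : ∀ x, φ x = x ^ q) (a : Fin 6) : ∃ g, Sc hφ g 0 a := by
  have h0 := Sc.one hφ 0
  have h1 := (sc_A hφ 0).mul h0
  have h5 := (sc_B hφ 1).mul h1
  have h2 := (sc_A hφ 5).mul h5
  have h4 := (sc_B hφ 2).mul h2
  have h3 := (sc_A hφ 4).mul h4
  fin_cases a
  · exact ⟨_, h0⟩
  · exact ⟨_, h1⟩
  · exact ⟨_, h2⟩
  · exact ⟨_, h3⟩
  · exact ⟨_, h4⟩
  · exact ⟨_, h5⟩

/-- the Borel subgroup normalizes the highest root group -/
theorem borel_top {g : GL chevD4.Idx K} (hg : g ∈ chevD4.borelSubgroup K) {x : GL chevD4.Idx K}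
    (hx : x ∈ chevD4.rootSubgroup K 23) : g * x * g⁻¹ ∈ chevD4.rootSubgroup K 23 := by
  have hU : ∀ u ∈ chevD4.posUnipotent K, ∀ x ∈ chevD4.rootSubgroup K 23, Commute u x := by
    intro u hu x hx
    obtain ⟨s, rfl⟩ := mem_rootSubgroup.1 hx
    have : chevD4.posUnipotent K ≤ Subgroup.centralizer {xG 23 s} := by
      refine (Subgroup.closure_le _).2 ?_
      rintro y ⟨r, t, hr, hy⟩
      obtain ⟨h1, h2⟩ := (isPosRoot_iff _).1 hr
      have hy' : y = xG r t := Units.ext hy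
      subst hy'
      rw [SetLike.mem_coe, Subgroup.mem_centralizer_singleton_iff]
      by_cases h : r = 23
      · subst h
        rw [← xG_add, ← xG_add, add_comm]
      · have h3 := neg_gi r (List.mem_range.2 h2) h1 h
        have := commute_of_nil hp (show 23 < 24 by norm_num) h2 h h3.1 h3.2 s t
        rw [Cfsg.Agent.Nodes.RGDTwD4.xG_eq] at this
        exact this.symm.eq
    exact Subgroup.mem_centralizer_singleton_iff.1 (this hu)
  have hle : chevD4.borelSubgroup K ≤ Subgroup.normalizer (chevD4.rootSubgroup K 23 : Subgroup _) := by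
    refine sup_le ?_ ?_
    · intro u hu
      rw [Subgroup.mem_normalizer_iff]
      intro x
      constructor
      · intro hx
        rw [(hU u hu x hx).eq, mul_inv_cancel_right]
        exact hx
      · intro hx
        have h1 := hU u⁻¹ (inv_mem hu) _ hx
        have h2 : x = u⁻¹ * (u * x * u⁻¹) * u := by group
        rw [h2, h1.eq, inv_mul_cancel_right]
        exact hx
    · intro h hh
      rw [Subgroup.mem_normalizer_iff]
      intro x
      constructor
      · intro hx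
        exact H_conj hh (by norm_num) hx
      · intro hx
        have h2 : x = h⁻¹ * (h * x * h⁻¹) * (h⁻¹)⁻¹ := by group
        rw [h2]
        exact H_conj (inv_mem hh) (by norm_num) hx
  exact (Subgroup.mem_normalizer_iff.1 (hle hg) x).1 hx

theorem entry_tab : ∀ a b : Fin 6, a ≠ b →
    ((D4Tab.tcols (gi b) (4 + (23 - gi a))).filter fun e => e.1 = 4 + gi a) = [] := by decide +kernel

theorem x_entry_ne {a b : Fin 6} (h : a ≠ b) (t : K) :
    chevD4.x K (gi b) t (Sum.inr ⟨gi a, gi_lt a⟩) (Sum.inr ⟨23 - gi a, show 23 - gi a < 24 by omega⟩) = 0 := by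
  have h2 := entry_tab a b h
  have h3 : ∀ (l : List (ℕ × ℤ × ℕ)) (k : ℕ),
      LaurentWord.colSum t l k = LaurentWord.colSum t (l.filter fun e => e.1 = k) k := by
    intro l k
    induction l with
    | nil => rfl
    | cons e l ih =>
      rw [LaurentWord.colSum_cons, ih]
      by_cases he : e.1 = k
      · rw [List.filter_cons_of_pos (by simpa using he), LaurentWord.colSum_cons]
      · rw [List.filter_cons_of_neg (by simpa using he), if_neg he, zero_add]
  rw [x_entry (gi_lt b), LaurentWord.code_inr, LaurentWord.code_inr]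
  show LaurentWord.colSum t (D4Tab.tcols (gi b) (4 + (23 - gi a))) (4 + gi a) = _
  rw [h3, h2, LaurentWord.colSum_nil]

theorem xG_disj {a b : Fin 6} (h : a ≠ b) {s t : K} (e : (xG (gi a) s : GL chevD4.Idx K) = xG (gi b) t) : s = 0 := by
  have h1 := x_entry_neg (gi_lt a) s
  have h2 : chevD4.x K (gi a) s = chevD4.x K (gi b) t := congrArg Units.val e
  rw [h2, x_entry_ne h] at h1
  have : s ^ 2 = 0 := by linear_combination h1
  exact pow_eq_zero_iff (two_ne_zero) |>.1 this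

/-- a conjugation which maps elements of a root group to elements of a root group is onto -/
theorem onto {G : Type*} [Group G] {L : Type*} [Finite L] {x y : L → G} (hy : Function.Injective y) {g : G}
    (h : ∀ t, ∃ s, y t = g * x s * g⁻¹) (s : L) : ∃ t, y t = g * x s * g⁻¹ := by
  choose f hf using h
  have hinj : Function.Injective f := by
    intro t t' e
    apply hy
    rw [hf t, hf t', e]
  obtain ⟨t, ht⟩ := (Finite.injective_iff_surjective.1 hinj) s
  exact ⟨t, by rw [hf t, ht]⟩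

end Tw

section Main

variable {K : Type} [Field K] [Finite K] {q : ℕ} {φ : K →+* K}

theorem X_add (hφ : ∀ x, φ x = x ^ q) (a : Fin 6) (s t : K' φ) : X hφ a (s + t) = X hφ a s * X hφ a t :=
  Subtype.ext (xG_add _ _ _)

theorem X_inj (hφ : ∀ x, φ x = x ^ q) (a : Fin 6) (s : K' φ) (h : X hφ a s = 1) : s = 0 := by
  have h1 : xG (gi a) (s : K) = 1 := congrArg Subtype.val h
  exact Subtype.ext ((xG_eq_one_iff (gi_lt a) _).1 h1)

theorem X_injective (hφ : ∀ x, φ x = x ^ q) (a : Fin 6) : Function.Injective (X hφ a) := by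
  intro s t h
  have h0 : X hφ a 0 = 1 := by
    have := X_add hφ a 0 0
    simpa using this
  have h1 : X hφ a (s - t) = 1 := by
    have h2 := X_add hφ a (s - t) t
    rw [sub_add_cancel, h] at h2
    exact (right_eq_mul.1 h2)
  exact sub_eq_zero.1 (X_inj hφ a _ h1)

/-- the system of long root groups -/
noncomputable def sys (hφ : ∀ x, φ x = x ^ q) (hle : twistedD4 K q ≤ fix φ) : LSys ↥(twistedD4 K q) (Fin 6) (K' φ) where
  x := X hφ
  pr := pr
  top := 0
  x_add := X_add hφ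
  x_inj := X_inj hφ
  pr_self := pr_self
  disj a b s t h e := Subtype.ext (xG_disj h (congrArg Subtype.val e))
  comm a b h s t := Subtype.ext (comm_ge h (s : K) (t : K)).eq
  symm := by decide +kernel
  cases := by decide +kernel
  cf a b h := by
    obtain ⟨-, -, -, h4, h5, h6, -⟩ := comm1 a b h
    refine ⟨mid a b, ((-cst a b : ℤ) : K' φ), ?_, h5, h6, fun s t => Subtype.ext ?_⟩
    · rcases h4 with h | h <;> rw [h] <;> simp
    · have := comm_eq h (s : K) (t : K)
      show (xG (gi a) (s : K) * xG (gi b) (t : K) * (xG (gi a) (s : K))⁻¹ * (xG (gi b) (t : K))⁻¹ : GL chevD4.Idx K) = _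
      rw [this, coe_X]
      congr 1
  sub a b h := by
    have hs : ∀ a b, pr a b = 1 → ∃ c, pr c b = -1 ∧ mid c b = a := by decide +kernel
    obtain ⟨c, h1, h2⟩ := hs a b h
    obtain ⟨-, -, -, h4, h5, h6, -⟩ := comm1 c b h1
    refine ⟨c, ((-cst c b : ℤ) : K' φ), ?_, fun s t => Subtype.ext ?_⟩
    · rcases h4 with h | h <;> rw [h] <;> simp
    · have := comm_eq h1 (s : K) (t : K)
      show (xG (gi c) (s : K) * xG (gi b) (t : K) * (xG (gi c) (s : K))⁻¹ * (xG (gi b) (t : K))⁻¹ : GL chevD4.Idx K) = _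
      rw [this, coe_X, h2]
      congr 1
  ort := by decide +kernel
  opp := by decide +kernel
  lev0 := by decide +kernel
  lev1 := by decide +kernel
  trans a := by
    obtain ⟨g, hg⟩ := sc_top hφ a
    obtain ⟨e, he, h⟩ := hg
    refine ⟨g, fun t => ⟨e⁻¹ * t, ?_⟩⟩
    rw [h, mul_inv_cancel_left₀ he]
  trans' a g h := onto (X_injective hφ a) h
  bru g := by
    obtain ⟨P, hB, -, hS⟩ := exists_bnPair_aux hφ hle
    have h1 : g ∈ P.parabolic P.S := by
      show g ∈ P.B ⊔ Subgroup.closure P.S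
      rw [Cfsg.Agent.Schreier.BNSch.sup_closure_eq_top]
      trivial
    obtain ⟨n, hn, h2⟩ := (Cfsg.Agent.S0310.result P le_rfl g).1 h1
    obtain ⟨b1, hb1, b2, hb2, rfl⟩ := DoubleCoset.mem_doubleCoset.1 h2
    rw [hS] at hn
    obtain ⟨c, e, he, hc⟩ := sc_closure hφ hn 0
    have key : ∀ b ∈ P.B, ∀ s : K' φ, ∃ t, X hφ 0 t = b * X hφ 0 s * b⁻¹ := by
      intro b hb s
      rw [hB] at hb
      have h3 := borel_top hb.1 (x := xG 23 (s : K)) (mem_rootSubgroup.2 ⟨_, rfl⟩)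
      obtain ⟨u, hu⟩ := mem_rootSubgroup.1 h3
      have h4 : φ u = u := by
        refine fix_of_mem hle (a := 0) ?_
        show xG 23 u ∈ _
        rw [← hu]
        exact (b * X hφ 0 s * b⁻¹).2
      exact ⟨⟨u, h4⟩, Subtype.ext hu.symm⟩
    have key' : ∀ b ∈ P.B, ∀ t : K' φ, ∃ s, X hφ 0 t = b * X hφ 0 s * b⁻¹ := by
      intro b hb t
      obtain ⟨s, hs⟩ := key b⁻¹ (inv_mem hb) t
      refine ⟨s, ?_⟩
      rw [hs]
      group
    refine ⟨c, b1, fun s => ?_, fun t => ?_, fun s => ?_, fun t => ?_⟩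
    · obtain ⟨s', hs'⟩ := key b2 hb2 s
      refine ⟨e * s', ?_⟩
      rw [← hc, hs']
      group
    · obtain ⟨s, hs⟩ := key' b2 hb2 (e⁻¹ * t)
      refine ⟨s, ?_⟩
      have h5 := hc (e⁻¹ * t)
      rw [mul_inv_cancel_left₀ he] at h5
      rw [← h5, hs]
      group
    · obtain ⟨t, ht⟩ := key b1 hb1 s
      exact ⟨t, ht.symm⟩
    · obtain ⟨s, hs⟩ := key' b1 hb1 t
      exact ⟨s, hs.symm⟩

end Main

/-- **[X5]** the long root groups of `³D₄(q)` -/
theorem lrg_td4 : ∃ c : ℕ, ∀ (F : Type) [Field F] [Fintype F] (q : ℕ), Fintype.card F = q ^ 3 →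
    ∃ X : Subgroup ↥(Lie.twistedD4 F q), Nat.card X = q ∧ X ≠ ⊤ ∧ LRG X c := by
  refine ⟨3, fun F _ _ q hF => ?_⟩
  have hq : IsPrimePow q := by
    have h1 : IsPrimePow (q ^ 3) := hF ▸ FiniteField.isPrimePow_card F
    exact (isPrimePow_pow_iff (by norm_num)).1 h1
  obtain ⟨φ, hφ⟩ := exists_frob hq hF
  have hle := twisted_le_fix hF hφ
  have hc : Nat.card (K' φ) = q := by
    rw [← card_fix_field hq.one_lt hF hφ]
    exact Nat.card_congr (Equiv.refl _)
  refine ⟨(sys hφ hle).X (sys hφ hle).top, ?_, ?_, (sys hφ hle).lrg⟩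
  · rw [LSys.card_X, hc]
  · intro h
    have h1 : X hφ 1 1 ∈ (sys hφ hle).X (sys hφ hle).top := by rw [h]; trivial
    obtain ⟨t, ht⟩ := h1
    have := (sys hφ hle).disj 1 0 1 t (by decide) ht
    exact one_ne_zero this

end Cfsg.Agent.H513.Rg.TwD4
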